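import Cfsg.Agent.H383.Cov.Inv

/-!
# S2499, the orthogonal groups over the field of two elements: linear algebra (helper172)

`x` an endomorphism of finite order prime to the characteristic: dimensions of invariant subspaces.
-/

set_option autoImplicit false
set_option linter.unusedSectionVars false

namespace Cfsg.Agent.H172.Cov

open Module
open Cfsg.Agent.H383.Cov (coprime_ne_zero eq_zero_of_fix exists_fix finrank_add dvd_of_dvd_pow_sub dvd_of_free)

/-- a free action of a cyclic group -/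
theorem card_dvd_of_free {X : Type*} [Finite X] (e : Equiv.Perm X) {M : ℕ} (hM : 0 < M) (he : e ^ M = 1)
    (hfree : ∀ d : ℕ, 0 < d → d < M → ∀ x, (e ^ d) x ≠ x) : M ∣ Nat.card X := by
  classical
  rcases isEmpty_or_nonempty X with h | ⟨⟨x0⟩⟩
  · rw [Nat.card_of_isEmpty]; exact dvd_zero M
  have hord : orderOf e = M := by
    rw [orderOf_eq_iff hM]
    refine ⟨he, fun m hm1 hm2 h => hfree m hm2 hm1 x0 ?_⟩
    rw [h]; rfl
  have hstab : ∀ x : X, MulAction.stabilizer (Subgroup.zpowers e) x = ⊥ := by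
    intro x
    rw [eq_bot_iff]
    rintro ⟨g, hg⟩ hgx
    have hfin : IsOfFinOrder e := isOfFinOrder_iff_pow_eq_one.2 ⟨M, hM, he⟩
    obtain ⟨k, rfl⟩ := hfin.mem_powers_iff_mem_zpowers.2 hg
    have h1 : (e ^ k) x = x := hgx
    rw [Subgroup.mem_bot]
    apply Subtype.ext
    change e ^ k = 1
    have h2 : e ^ k = e ^ (k % M) := by rw [← hord, pow_mod_orderOf]
    rcases Nat.eq_zero_or_pos (k % M) with h3 | h3
    · rw [h2, h3, pow_zero]
    · exact absurd (h2 ▸ h1) (hfree _ h3 (Nat.mod_lt _ hM) x)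
  have h2 := Nat.card_congr (MulAction.selfEquivOrbitsQuotientProd hstab)
  rw [Nat.card_prod, Nat.card_zpowers, hord] at h2
  rw [h2]
  exact dvd_mul_left _ _

variable {F V : Type*} [Field F] [Finite F] [AddCommGroup V] [Module F V] [FiniteDimensional F V]

/-- an element of order `M` all of whose nontrivial powers have no fixed vector -/
theorem dvd_of_semireg {x : Module.End F V} {M c : ℕ} (hM : 0 < M) (hx : x ^ M = 1) (hc : 1 ≤ c)
    (h1 : M ∣ Nat.card F ^ c - 1) (h2 : ∀ i, 1 ≤ i → i < c → ¬ M ∣ Nat.card F ^ i - 1)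
    {W : Submodule F V} (hW : ∀ w ∈ W, x w ∈ W)
    (hfr : ∀ d : ℕ, 0 < d → d < M → ∀ w ∈ W, (x ^ d) w = w → w = 0) : c ∣ finrank F W := by
  classical
  have := Fintype.ofFinite F
  have hfin : Finite W := Module.finite_of_finite F
  have hinj : ∀ u v : V, x u = x v → u = v := by
    intro u v h
    have h3 : (x ^ M) u = (x ^ M) v := by
      obtain ⟨m, rfl⟩ : ∃ m, M = m + 1 := ⟨M - 1, by omega⟩
      rw [pow_succ, Module.End.mul_apply, Module.End.mul_apply, h]
    rwa [hx] at h3
  let X := {w : W // w ≠ 0}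
  let f : X → X := fun w => ⟨⟨x w.1, hW w.1 w.1.2⟩, fun h => w.2 (Subtype.ext (hinj _ _ (by
    have := congrArg Subtype.val h
    simpa using this)))⟩
  have hfinj : Function.Injective f := by
    intro u v h
    have h3 := congrArg (fun w : X => ((w.1 : W) : V)) h
    exact Subtype.ext (Subtype.ext (hinj _ _ h3))
  have hbij : Function.Bijective f := Finite.injective_iff_bijective.1 hfinj
  let e : Equiv.Perm X := Equiv.ofBijective f hbij
  have hpow : ∀ (i : ℕ) (w : X), ((((e ^ i) w : X).1 : W) : V) = (x ^ i) w.1 := by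
    intro i
    induction i with
    | zero => intro w; rfl
    | succ i ih =>
      intro w
      rw [pow_succ', pow_succ', Equiv.Perm.mul_apply, Module.End.mul_apply, ← ih]
      rfl
  have h3 := card_dvd_of_free e hM (by
    ext w
    rw [hpow, hx]
    rfl) (fun d hd hdM w hw => w.2 (Subtype.ext (hfr d hd hdM _ w.1.2 (by
      rw [← hpow, hw]))))
  have h4 : Nat.card X + 1 = Nat.card F ^ finrank F W := by
    have := Fintype.ofFinite W
    have := Fintype.ofFinite X
    rw [← Module.natCard_eq_pow_finrank (K := F) (V := W), Nat.card_eq_fintype_card, Nat.card_eq_fintype_card]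
    have h5 : Fintype.card X = Fintype.card W - 1 := by
      rw [← Fintype.card_subtype_eq (0 : W), ← Fintype.card_subtype_compl]
    have h6 : 0 < Fintype.card W := Fintype.card_pos
    omega
  have h5 : Nat.card X = Nat.card F ^ finrank F W - 1 := by omega
  rw [h5] at h3
  -- the order argument
  have h6 : M ∣ Nat.card F ^ (Nat.gcd c (finrank F W)) - 1 := by
    rw [← Nat.pow_sub_one_gcd_pow_sub_one]
    exact Nat.dvd_gcd h1 h3
  have h7 : Nat.gcd c (finrank F W) ≤ c := Nat.gcd_le_left _ hc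
  have h8 : 0 < Nat.gcd c (finrank F W) := Nat.gcd_pos_of_pos_left _ hc
  have h9 : ¬ Nat.gcd c (finrank F W) < c := fun h => h2 _ h8 h h6
  have h10 : Nat.gcd c (finrank F W) = c := by omega
  rw [← h10]
  exact Nat.gcd_dvd_right _ _

/-- an invariant subspace is the sum of its intersections with `ker (x - 1)` and `range (x - 1)` -/
theorem split {x : Module.End F V} {M : ℕ} (hx : x ^ M = 1) (hq : M.Coprime (Nat.card F)) {W : Submodule F V}
    (hW : ∀ w ∈ W, x w ∈ W) :
    finrank F (W ⊓ LinearMap.ker (x - 1) : Submodule F V) + finrank F (W ⊓ LinearMap.range (x - 1) : Submodule F V) =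
      finrank F W := by
  have hdis : (W ⊓ LinearMap.ker (x - 1)) ⊓ (W ⊓ LinearMap.range (x - 1)) = ⊥ := by
    rw [eq_bot_iff]
    rintro v ⟨⟨-, h1⟩, ⟨-, u, hu⟩⟩
    rw [Submodule.mem_bot]
    exact eq_zero_of_fix hx hq (v := u) hu.symm (sub_eq_zero.1 h1)
  have hsup : (W ⊓ LinearMap.ker (x - 1)) ⊔ (W ⊓ LinearMap.range (x - 1)) = W := by
    apply le_antisymm (sup_le inf_le_left inf_le_left)
    -- restrict to `W`
    intro w hw
    have hres : (x.restrict hW) ^ M = 1 := by
      apply LinearMap.ext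
      intro v
      apply Subtype.ext
      rw [Module.End.pow_restrict]
      simp [hx]
    obtain ⟨a, b, ha, hb⟩ := exists_fix hres hq (⟨w, hw⟩ : W)
    have ha' : x (a : V) = a := congrArg Subtype.val ha
    have hb' : w = (a : V) + (x (b : V) - b) := congrArg Subtype.val hb
    rw [hb']
    refine Submodule.add_mem_sup ⟨a.2, ?_⟩ ⟨W.sub_mem (hW _ b.2) b.2, b, rfl⟩
    change x (a : V) - a = 0
    rw [ha', sub_self]
  have h1 := Submodule.finrank_sup_add_finrank_inf_eq (W ⊓ LinearMap.ker (x - 1)) (W ⊓ LinearMap.range (x - 1))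
  rw [hdis, hsup, finrank_bot] at h1
  omega

/-- `c` divides the dimension of `W ⊓ range (x - 1)` -/
theorem dvd_range {x : Module.End F V} {r c : ℕ} (hr : r.Prime) (hq : r.Coprime (Nat.card F)) (hx : x ^ r = 1) (hc : 1 ≤ c)
    (h1 : r ∣ Nat.card F ^ c - 1) (h2 : ∀ i, 1 ≤ i → i < c → ¬ r ∣ Nat.card F ^ i - 1)
    {W : Submodule F V} (hW : ∀ w ∈ W, x w ∈ W) :
    c ∣ finrank F (W ⊓ LinearMap.range (x - 1) : Submodule F V) := by
  refine dvd_of_free hr hx hc h1 h2 (W := W ⊓ LinearMap.range (x - 1)) ?_ ?_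
  · rintro u ⟨h3, v, rfl⟩
    refine ⟨hW _ h3, x v, ?_⟩
    rw [← Module.End.mul_apply, ← Module.End.mul_apply, sub_mul, mul_sub, one_mul, mul_one]
  · rintro u ⟨-, v, hv⟩ hf
    exact eq_zero_of_fix hx hq (v := v) hv.symm hf

/-- `W ⊓ ker (x - 1)` is invariant under everything commuting with `x` -/
theorem ker_inv {x y : Module.End F V} (hxy : x * y = y * x) {W : Submodule F V} (hW : ∀ w ∈ W, y w ∈ W) :
    ∀ w ∈ W ⊓ LinearMap.ker (x - 1), y w ∈ W ⊓ LinearMap.ker (x - 1) := by
  rintro w ⟨h1, h2⟩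
  refine ⟨hW w h1, ?_⟩
  have h3 : x w = w := sub_eq_zero.1 h2
  change x (y w) - y w = 0
  rw [← Module.End.mul_apply, hxy, Module.End.mul_apply, h3, sub_self]

/-- the numerical data of a prime `r` with `q` of order `c` modulo `r` -/
structure Pr (q r c : ℕ) : Prop where
  prime : r.Prime
  cop : r.Coprime q
  pos : 1 ≤ c
  dvd : r ∣ q ^ c - 1
  min : ∀ i, 1 ≤ i → i < c → ¬ r ∣ q ^ i - 1

theorem Pr.dvd_range {r c : ℕ} (h : Pr (Nat.card F) r c) {x : Module.End F V} (hx : x ^ r = 1)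
    {W : Submodule F V} (hW : ∀ w ∈ W, x w ∈ W) :
    c ∣ finrank F (W ⊓ LinearMap.range (x - 1) : Submodule F V) :=
  Cov.dvd_range h.prime h.cop hx h.pos h.dvd h.min hW

theorem Pr.dvd_free {r c : ℕ} (h : Pr (Nat.card F) r c) {x : Module.End F V} (hx : x ^ r = 1)
    {W : Submodule F V} (hW : ∀ w ∈ W, x w ∈ W) (hfr : ∀ w ∈ W, x w = w → w = 0) : c ∣ finrank F W :=
  dvd_of_free h.prime hx h.pos h.dvd h.min hW hfr

/-- one prime: `dim W = a + b`, `c ∣ b`, `a ≤ dim ker`, `b ≤ dim range` -/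
theorem Pr.one {r c : ℕ} (h : Pr (Nat.card F) r c) {x : Module.End F V} (hx : x ^ r = 1)
    {W : Submodule F V} (hW : ∀ w ∈ W, x w ∈ W) :
    ∃ a b, finrank F W = a + b ∧ c ∣ b ∧ a ≤ finrank F (LinearMap.ker (x - 1)) ∧
      b ≤ finrank F (LinearMap.range (x - 1)) :=
  ⟨_, _, (split hx h.cop hW).symm, h.dvd_range hx hW, Submodule.finrank_mono inf_le_right,
    Submodule.finrank_mono inf_le_right⟩

/-- two primes: `x`, `y` commute, without common fixed vectors -/
theorem Pr.two {r c s d : ℕ} (h : Pr (Nat.card F) r c) (h' : Pr (Nat.card F) s d) {x y : Module.End F V}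
    (hx : x ^ r = 1) (hy : y ^ s = 1) (hxy : x * y = y * x) (hfr : ∀ v, x v = v → y v = v → v = 0)
    {W : Submodule F V} (hW : ∀ w ∈ W, x w ∈ W) (hW' : ∀ w ∈ W, y w ∈ W) :
    ∃ a b, finrank F W = a + b ∧ c ∣ b ∧ d ∣ a ∧ a ≤ finrank F (LinearMap.ker (x - 1)) ∧
      b ≤ finrank F (LinearMap.range (x - 1)) := by
  refine ⟨_, _, (split hx h.cop hW).symm, h.dvd_range hx hW, ?_, Submodule.finrank_mono inf_le_right,
    Submodule.finrank_mono inf_le_right⟩
  refine h'.dvd_free hy (ker_inv hxy hW') ?_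
  rintro w ⟨-, h2⟩ h3
  exact hfr w (sub_eq_zero.1 h2) h3

/-- the total dimensions for one prime -/
theorem Pr.tot {r c : ℕ} (h : Pr (Nat.card F) r c) {x : Module.End F V} (hx : x ^ r = 1) :
    finrank F (LinearMap.range (x - 1)) + finrank F (LinearMap.ker (x - 1)) = finrank F V ∧
      c ∣ finrank F (LinearMap.range (x - 1)) := by
  refine ⟨finrank_add, ?_⟩
  have := h.dvd_range hx (W := ⊤) (fun _ _ => trivial)
  rwa [top_inf_eq] at this

theorem range_pos {x : Module.End F V} (hx : x ≠ 1) : 0 < finrank F (LinearMap.range (x - 1)) := by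
  rw [Nat.pos_iff_ne_zero]
  intro h
  apply hx
  rw [Submodule.finrank_eq_zero] at h
  exact sub_eq_zero.1 (LinearMap.range_eq_bot.1 h)

/-- the total dimensions for two primes -/
theorem Pr.tot2 {r c s d : ℕ} (h : Pr (Nat.card F) r c) (h' : Pr (Nat.card F) s d) {x y : Module.End F V}
    (hx : x ^ r = 1) (hy : y ^ s = 1) (hxy : x * y = y * x) (hfr : ∀ v, x v = v → y v = v → v = 0) :
    finrank F (LinearMap.range (x - 1)) + finrank F (LinearMap.ker (x - 1)) = finrank F V ∧
      c ∣ finrank F (LinearMap.range (x - 1)) ∧ d ∣ finrank F (LinearMap.ker (x - 1)) := by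
  refine ⟨finrank_add, (h.tot hx).2, ?_⟩
  have h1 := h'.dvd_free (W := ⊤ ⊓ LinearMap.ker (x - 1)) hy (ker_inv hxy fun _ _ => trivial) ?_
  · rwa [top_inf_eq] at h1
  · rintro w ⟨-, h2⟩ h3
    exact hfr w (sub_eq_zero.1 h2) h3

/-- two independent subspaces without fixed vectors, both of dimension divisible by `c`, in a space `range (x - 1)` of
dimension at most `2 c`, have dimension `c` -/
theorem ker_eq {r c : ℕ} (h : Pr (Nat.card F) r c) {x : Module.End F V} (hx : x ^ r = 1)
    {A B : Submodule F V} (hA : ∀ w ∈ A, x w ∈ A) (hB : ∀ w ∈ B, x w ∈ B) (hA0 : ∀ w ∈ A, x w = w → w = 0)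
    (hB0 : ∀ w ∈ B, x w = w → w = 0) (hA1 : A ≠ ⊥) (hB1 : B ≠ ⊥) (hAB : A ⊓ B = ⊥)
    (hd : finrank F (LinearMap.range (x - 1)) < 3 * c) : finrank F A = c ∧ finrank F B = c := by
  have key : ∀ A : Submodule F V, (∀ w ∈ A, x w ∈ A) → (∀ w ∈ A, x w = w → w = 0) → A ≤ LinearMap.range (x - 1) := by
    intro A hA hA0
    have h1 := split hx h.cop hA
    have h2 : A ⊓ LinearMap.ker (x - 1) = ⊥ := by
      rw [eq_bot_iff]
      rintro w ⟨h3, h4⟩
      exact hA0 w h3 (sub_eq_zero.1 h4)
    rw [h2, finrank_bot, zero_add] at h1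
    have h3 : A ⊓ LinearMap.range (x - 1) = A := Submodule.eq_of_le_of_finrank_eq inf_le_left h1
    rw [← h3]
    exact inf_le_right
  have ha := h.dvd_free hx hA hA0
  have hb := h.dvd_free hx hB hB0
  have h1 := Submodule.finrank_sup_add_finrank_inf_eq A B
  rw [hAB, finrank_bot, add_zero] at h1
  have h2 : finrank F (A ⊔ B : Submodule F V) ≤ finrank F (LinearMap.range (x - 1)) :=
    Submodule.finrank_mono (sup_le (key A hA hA0) (key B hB hB0))
  have ha0 : 0 < finrank F A := Nat.pos_iff_ne_zero.2 fun h => hA1 (Submodule.finrank_eq_zero.1 h)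
  have hb0 : 0 < finrank F B := Nat.pos_iff_ne_zero.2 fun h => hB1 (Submodule.finrank_eq_zero.1 h)
  obtain ⟨a, ha⟩ := ha
  obtain ⟨b, hb⟩ := hb
  have hc := h.pos
  have ha1 : 1 ≤ a := by
    rcases Nat.eq_zero_or_pos a with rfl | h
    · omega
    · exact h
  have hb1 : 1 ≤ b := by
    rcases Nat.eq_zero_or_pos b with rfl | h
    · omega
    · exact h
  have h3 : a + b < 3 := by
    by_contra hcon
    push Not at hcon
    have : c * 3 ≤ c * (a + b) := Nat.mul_le_mul_left c hcon
    rw [mul_add] at this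
    omega
  have h4 : a = 1 := by omega
  have h5 : b = 1 := by omega
  subst h4 h5
  omega

end Cfsg.Agent.H172.Cov
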